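import Groth.Agent.Sga2lef.H75.Transform
import Groth.Agent.Ega4B.Zariski
import Groth.Agent.Ega4A.CplFlat

/-!
# Connectedness of the punctured spectrum of the completion of a henselian local ring
-/

set_option autoImplicit false
universe u v

open IsLocalRing Polynomial

namespace Groth.Agent.Sga2lef.H75.FlatConn

open PConn Transform

/-- A ring generated by the image of a local ring modulo an ideal contained in all the maximal ideals
is local. -/
theorem isLocalRing_of_add {E : Type u} {E' : Type v} [CommRing E] [CommRing E'] [IsLocalRing E]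
    [Nontrivial E'] (ψ : E →+* E') (I : Ideal E') (hI : ∀ M : Ideal E', M.IsMaximal → I ≤ M)
    (h : ∀ y : E', ∃ u : E, y - ψ u ∈ I) : IsLocalRing E' := by
  have key : ∀ M : Ideal E', M.IsMaximal → ∀ u : E, ψ u ∈ M ↔ u ∈ maximalIdeal E := by
    intro M hM u
    have h1 : (M.comap ψ).IsMaximal := by
      have h2 : Function.Surjective ((Ideal.Quotient.mk M).comp ψ) := by
        intro q
        obtain ⟨y, rfl⟩ := Ideal.Quotient.mk_surjective q
        obtain ⟨u, hu⟩ := h y
        exact ⟨u, ((Ideal.Quotient.mk_eq_mk_iff_sub_mem _ _).mpr (hI M hM hu)).symm⟩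
      have h3 := Ideal.comap_isMaximal_of_surjective _ h2 (K := (⊥ : Ideal (E' ⧸ M)))
        (H := (Ideal.bot_quotient_isMaximal_iff M).mpr hM)
      rwa [← Ideal.comap_comap, ← RingHom.ker_eq_comap_bot, Ideal.mk_ker] at h3
    rw [← Ideal.mem_comap, IsLocalRing.eq_maximalIdeal h1]
  have hle : ∀ M M' : Ideal E', M.IsMaximal → M'.IsMaximal → M ≤ M' := by
    intro M M' hM hM' y hy
    obtain ⟨u, hu⟩ := h y
    have h1 : ψ u ∈ M := by
      have := M.sub_mem hy (hI M hM hu)
      rwa [sub_sub_cancel] at this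
    have h2 : ψ u ∈ M' := (key M' hM' u).mpr ((key M hM u).mp h1)
    have := M'.add_mem (hI M' hM' hu) h2
    rwa [sub_add_cancel] at this
  obtain ⟨M, hM⟩ := Ideal.exists_maximal E'
  exact IsLocalRing.of_unique_max_ideal ⟨M, hM, fun M' hM' =>
    le_antisymm (hle _ _ hM' hM) (hle _ _ hM hM')⟩

section Surj

variable {B : Type u} {C : Type v} [CommRing B] [CommRing C] [IsLocalRing B] [IsLocalRing C]
  (π : B →+* C) (hπ : Function.Surjective π)

include hπ in
theorem comap_maximalIdeal : (maximalIdeal C).comap π = maximalIdeal B :=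
  IsLocalRing.eq_maximalIdeal (Ideal.comap_isMaximal_of_surjective π hπ)

include hπ in
theorem map_maximalIdeal : (maximalIdeal B).map π = maximalIdeal C := by
  rw [← comap_maximalIdeal π hπ, Ideal.map_comap_of_surjective π hπ]

include hπ in
theorem isPConn_of_surjective (hker : RingHom.ker π ≤ nilradical B) (h : IsPConn B) : IsPConn C := by
  rintro J₁ J₂ hJ ⟨n, hn⟩
  have h1 : J₁.comap π * J₂.comap π ≤ nilradical B := by
    rw [Ideal.mul_le]
    intro a ha b hb
    have h2 : π (a * b) ∈ nilradical C := by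
      rw [map_mul]
      exact hJ (Ideal.mul_mem_mul ha hb)
    rw [mem_nilradical] at h2
    obtain ⟨k, hk⟩ := h2
    rw [← map_pow] at hk
    have h3 : (a * b) ^ k ∈ nilradical B := hker hk
    rw [mem_nilradical] at h3 ⊢
    obtain ⟨l, hl⟩ := h3
    exact ⟨k * l, by rw [pow_mul]; exact hl⟩
  have h2 : ∃ n, maximalIdeal B ^ n ≤ J₁.comap π ⊔ J₂.comap π := by
    refine ⟨n, fun a ha => ?_⟩
    have h3 : π a ∈ J₁ ⊔ J₂ := by
      apply hn
      rw [← map_maximalIdeal π hπ, ← Ideal.map_pow]
      exact Ideal.mem_map_of_mem _ ha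
    obtain ⟨y₁, hy₁, y₂, hy₂, hy⟩ := Submodule.mem_sup.mp h3
    obtain ⟨z, rfl⟩ := hπ y₁
    have h4 : a = z + (a - z) := by ring
    rw [h4]
    refine Submodule.add_mem_sup hy₁ ?_
    rw [Ideal.mem_comap, map_sub, ← hy, add_sub_cancel_left]
    exact hy₂
  have h3 : ∀ (J : Ideal C) (n : ℕ), maximalIdeal B ^ n ≤ J.comap π → maximalIdeal C ^ n ≤ J := by
    intro J n hn
    rw [← map_maximalIdeal π hπ, ← Ideal.map_pow, Ideal.map_le_iff_le_comap]
    exact hn
  exact (h _ _ h1 h2).imp (fun ⟨n, hn⟩ => ⟨n, h3 _ n hn⟩) fun ⟨n, hn⟩ => ⟨n, h3 _ n hn⟩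

include hπ in
theorem isPConn_of_quotient [IsNoetherianRing B] (hker : RingHom.ker π ≤ nilradical B)
    (h : IsPConn C) : IsPConn B := by
  rintro J₁ J₂ hJ ⟨n, hn⟩
  have h1 : J₁.map π * J₂.map π ≤ nilradical C := by
    rw [← Ideal.map_mul]
    refine (Ideal.map_mono hJ).trans ?_
    rw [Ideal.map_le_iff_le_comap]
    intro a ha
    rw [mem_nilradical] at ha
    rw [Ideal.mem_comap, mem_nilradical]
    exact ha.map π
  have h2 : ∃ n, maximalIdeal C ^ n ≤ J₁.map π ⊔ J₂.map π := by
    refine ⟨n, ?_⟩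
    rw [← map_maximalIdeal π hπ, ← Ideal.map_pow, ← Ideal.map_sup]
    exact Ideal.map_mono hn
  have h3 : ∀ (J : Ideal B) (n : ℕ), maximalIdeal C ^ n ≤ J.map π → ∃ k, maximalIdeal B ^ k ≤ J := by
    intro J n hn
    refine exists_pow_le_of_forall J fun p hp hle => ?_
    rw [← map_maximalIdeal π hπ, ← Ideal.map_pow, Ideal.map_le_iff_le_comap,
      Ideal.comap_map_of_surjective π hπ] at hn
    refine eq_of_pow_le hn hp (sup_le hle ?_)
    rw [← RingHom.ker_eq_comap_bot]
    exact hker.trans (nilradical_le_prime p)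
  exact (h _ _ h1 h2).imp (fun ⟨n, hn⟩ => h3 _ n hn) fun ⟨n, hn⟩ => h3 _ n hn

end Surj

section Flat

variable {A A' : Type u} [CommRing A] [CommRing A'] [IsLocalRing A'] [Algebra A A']

theorem exists_sub_mem_pow [IsLocalRing A] (hm : (maximalIdeal A).map (algebraMap A A') = maximalIdeal A')
    (hres : ∀ y : A', ∃ a : A, y - algebraMap A A' a ∈ maximalIdeal A') (n : ℕ) (y : A') :
    ∃ a : A, y - algebraMap A A' a ∈ (maximalIdeal A ^ n).map (algebraMap A A') := by
  induction n generalizing y with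
  | zero => exact ⟨0, by rw [pow_zero, Ideal.one_eq_top, Ideal.map_top]; trivial⟩
  | succ n ih =>
    obtain ⟨a, ha⟩ := ih y
    have h1 : ∀ z ∈ (maximalIdeal A ^ n).map (algebraMap A A'), ∃ b : A,
        z - algebraMap A A' b ∈ (maximalIdeal A ^ (n + 1)).map (algebraMap A A') := by
      intro z hz
      refine Submodule.span_induction ?_ ?_ ?_ ?_ hz
      · rintro _ ⟨b, -, rfl⟩
        exact ⟨b, by rw [sub_self]; exact Ideal.zero_mem _⟩
      · exact ⟨0, by rw [map_zero, sub_zero]; exact Ideal.zero_mem _⟩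
      · rintro z z' - - ⟨b, hb⟩ ⟨b', hb'⟩
        refine ⟨b + b', ?_⟩
        rw [map_add, add_sub_add_comm]
        exact Ideal.add_mem _ hb hb'
      · rintro w z hz ⟨b, hb⟩
        obtain ⟨c, hc⟩ := hres w
        refine ⟨c * b, ?_⟩
        have h2 : w • z - algebraMap A A' (c * b) =
            algebraMap A A' c * (z - algebraMap A A' b) + z * (w - algebraMap A A' c) := by
          rw [map_mul, smul_eq_mul]; ring
        rw [h2]
        refine Ideal.add_mem _ (Ideal.mul_mem_left _ _ hb) ?_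
        rw [pow_succ, Ideal.map_mul]
        rw [← hm] at hc
        exact Ideal.mul_mem_mul hz hc
    obtain ⟨b, hb⟩ := h1 _ ha
    exact ⟨a + b, by rw [map_add, ← sub_sub]; exact hb⟩

/-- A reduced Noetherian local ring of dimension at least two has a regular element in its maximal
ideal. -/
theorem exists_regular [IsLocalRing A] [IsNoetherianRing A] [IsReduced A]
    (hdim : (2 : WithBot ℕ∞) ≤ ringKrullDim A) :
    ∃ x ∈ maximalIdeal A, x ∈ nonZeroDivisors A := by
  by_contra! hcon
  have hsub : (maximalIdeal A : Set A) ⊆ ⋃ p ∈ minimalPrimes A, (p : Set A) := by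
    intro x hx
    by_contra hx'
    simp only [Set.mem_iUnion, not_exists] at hx'
    apply hcon x hx
    rw [mem_nonZeroDivisors_iff_right]
    intro y hy
    have h1 : y ∈ nilradical A := by
      rw [nilradical, ← Ideal.sInf_minimalPrimes, Ideal.mem_sInf]
      intro p hp
      have hpp : p.IsPrime := hp.1.1
      have h2 : y * x ∈ p := by rw [hy]; exact Ideal.zero_mem _
      exact (hpp.mem_or_mem h2).resolve_right (hx' p hp)
    rw [nilradical_eq_zero] at h1
    exact h1
  obtain ⟨p, hp, hle⟩ := (Ideal.subset_union_prime_finite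
    (minimalPrimes.finite_of_isNoetherianRing A) (f := id) ⊥ ⊥ (fun p hp _ _ => hp.1.1)).mp hsub
  have hpp : p.IsPrime := hp.1.1
  exact ne_maximalIdeal_of_mem_minimalPrimes hdim hp
    (le_antisymm (le_maximalIdeal hpp.ne_top) hle)

/-- Idempotents of the form `c₀ / x ^ n + d₀`. -/
theorem eq_zero_or_one_of_add [IsNoetherianRing A] [HenselianLocalRing A] [IsReduced A]
    (hm : (maximalIdeal A).map (algebraMap A A') = maximalIdeal A')
    (hres : ∀ y : A', ∃ a : A, y - algebraMap A A' a ∈ maximalIdeal A')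
    (hA : IsPConn A) (hdim : (2 : WithBot ℕ∞) ≤ ringKrullDim A) {x : A} (hxm : x ∈ maximalIdeal A)
    (hx : x ∈ nonZeroDivisors A) (hx' : algebraMap A A' x ∈ nonZeroDivisors A') (n : ℕ) (c₀ : A)
    (hc₀ : ∀ a ∈ maximalIdeal A ^ n, ∃ b, a * c₀ = x ^ n * b) (d₀ : A')
    (e : Localization.Away (algebraMap A A' x)) (hee : e * e = e)
    (he : algebraMap A' _ (algebraMap A A' x) ^ n * e = algebraMap A' _ (algebraMap A A' c₀) +
      algebraMap A' _ (algebraMap A A' x) ^ n * algebraMap A' _ d₀) : e = 0 ∨ e = 1 := by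
  have hdim' : ∀ p ∈ minimalPrimes A, (2 : WithBot ℕ∞) ≤ ringKrullDim (A ⧸ p) :=
    fun p hp => two_le_dim_of_isPConn hA hdim hp
  let L := Localization.Away x
  let L' := Localization.Away (algebraMap A A' x)
  have hinj' : Function.Injective (algebraMap A' L') := IsLocalization.injective _
    (Submonoid.powers_le.mpr hx')
  have hntL' : Nontrivial L' := hinj'.nontrivial
  have hu' : IsUnit (algebraMap A' L' (algebraMap A A' x)) := IsLocalization.Away.algebraMap_isUnit _
  obtain ⟨u, hu⟩ : IsUnit (algebraMap A L x ^ n) := isUnit_x.pow n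
  let s : L := ↑u⁻¹ * algebraMap A L c₀
  have hs : algebraMap A L x ^ n * s = algebraMap A L c₀ := by
    change algebraMap A L x ^ n * (↑u⁻¹ * algebraMap A L c₀) = _
    rw [← mul_assoc, ← hu, Units.mul_inv, one_mul]
  have hstr : s ∈ transform x := by
    refine ⟨n, fun a ha => ?_⟩
    obtain ⟨b, hb⟩ := hc₀ a ha
    refine ⟨b, ?_⟩
    apply (isUnit_x (x := x) |>.pow n).mul_left_cancel
    rw [mul_left_comm, hs, ← map_mul, hb, map_mul, map_pow]
  have hsint : IsIntegral A s := by
    refine PunctRed.isIntegral_of_reduced hdim' x hx s fun a ha => ?_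
    obtain ⟨b, hb⟩ := hc₀ (a ^ n) (Ideal.pow_mem_pow ha n)
    refine ⟨n, b, ?_⟩
    apply (isUnit_x (x := x) |>.pow n).mul_left_cancel
    rw [mul_left_comm, hs, ← map_pow, ← map_mul, hb, map_mul, map_pow]
  let E : Subalgebra A L := Algebra.adjoin A {s}
  have hEle : E ≤ transform x := Algebra.adjoin_le (by rintro _ rfl; exact hstr)
  have hEfin : Module.Finite A E := by
    refine ⟨(Submodule.fg_top _).mpr (fg_adjoin_of_finite (Set.finite_singleton s) fun y hy => ?_)⟩
    rw [Set.mem_singleton_iff.mp hy]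
    exact hsint
  have hEloc : IsLocalRing E := isLocalRing_of_finite hA hx hxm E hEle
  -- the map to the localization of `A'`
  let Φ : L →+* L' := IsLocalization.Away.lift (g := (algebraMap A' L').comp (algebraMap A A')) x hu'
  have hΦ : ∀ a, Φ (algebraMap A L a) = algebraMap A' L' (algebraMap A A' a) := fun a =>
    IsLocalization.Away.lift_eq x hu' a
  let E' : Subalgebra A' L' := Algebra.adjoin A' {Φ s}
  have hsE' : Φ s ∈ E' := Algebra.self_mem_adjoin_singleton _ _
  have hΦE : ∀ t : E, Φ t ∈ E' := by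
    rintro ⟨t, ht⟩
    refine Algebra.adjoin_induction ?_ ?_ ?_ ?_ ht
    · rintro _ rfl
      exact hsE'
    · intro a
      rw [hΦ]
      exact E'.algebraMap_mem _
    · intro t t' _ _ h h'
      rw [map_add]
      exact E'.add_mem h h'
    · intro t t' _ _ h h'
      rw [map_mul]
      exact E'.mul_mem h h'
  let ψ : E →+* E' := (Φ.comp (algebraMap E L)).codRestrict E'.toSubring hΦE
  have hψ : ∀ t : E, ((ψ t : E') : L') = Φ t := fun t => rfl
  have hE'int : Algebra.IsIntegral A' E' := by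
    have h1 : IsIntegral A' (Φ s) := by
      obtain ⟨f, hf, hf0⟩ := hsint
      refine ⟨f.map (algebraMap A A'), hf.map _, ?_⟩
      rw [eval₂_map, ← map_zero Φ, ← hf0, hom_eval₂]
      congr 1
      ext a
      exact (hΦ a).symm
    have h2 : Module.Finite A' E' := by
      refine ⟨(Submodule.fg_top _).mpr (fg_adjoin_of_finite (Set.finite_singleton _) fun y hy => ?_)⟩
      rw [Set.mem_singleton_iff.mp hy]
      exact h1
    exact Algebra.IsIntegral.of_finite A' E'
  have hE'loc : IsLocalRing E' := by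
    refine isLocalRing_of_add ψ ((maximalIdeal A').map (algebraMap A' E')) ?_ ?_
    · intro M hM
      have h1 : (M.comap (algebraMap A' E')).IsMaximal :=
        Ideal.isMaximal_comap_of_isIntegral_of_isMaximal M
      rw [Ideal.map_le_iff_le_comap, IsLocalRing.eq_maximalIdeal h1]
    · have key : ∀ (y : L') (hy : y ∈ E'), ∃ t : E, (⟨y, hy⟩ : E') - ψ t ∈
          (maximalIdeal A').map (algebraMap A' E') := by
        intro y hy
        refine Algebra.adjoin_induction (p := fun y hy => ∃ t : E, (⟨y, hy⟩ : E') - ψ t ∈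
          (maximalIdeal A').map (algebraMap A' E')) ?_ ?_ ?_ ?_ hy
        · intro y hy
          refine ⟨⟨s, Algebra.self_mem_adjoin_singleton _ _⟩, ?_⟩
          have h1 : (⟨y, Algebra.subset_adjoin hy⟩ : E') =
              ψ ⟨s, Algebra.self_mem_adjoin_singleton _ _⟩ := by
            apply Subtype.ext
            rw [hψ]
            exact hy
          rw [h1, sub_self]
          exact Ideal.zero_mem _
        · intro b
          obtain ⟨a, ha⟩ := hres b
          refine ⟨algebraMap A E a, ?_⟩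
          have h1 : (⟨algebraMap A' L' b, E'.algebraMap_mem b⟩ : E') - ψ (algebraMap A E a) =
              algebraMap A' E' (b - algebraMap A A' a) := by
            apply Subtype.ext
            change algebraMap A' L' b - Φ (algebraMap A L a) = algebraMap A' L' (b - algebraMap A A' a)
            rw [hΦ, map_sub]
          rw [h1]
          exact Ideal.mem_map_of_mem _ ha
        · rintro y y' hy hy' ⟨t, ht⟩ ⟨t', ht'⟩
          refine ⟨t + t', ?_⟩
          have h1 : (⟨y + y', E'.add_mem hy hy'⟩ : E') - ψ (t + t') =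
              ((⟨y, hy⟩ : E') - ψ t) + ((⟨y', hy'⟩ : E') - ψ t') := by
            have h2 : (⟨y + y', E'.add_mem hy hy'⟩ : E') = ⟨y, hy⟩ + ⟨y', hy'⟩ := rfl
            rw [map_add, h2, add_sub_add_comm]
          exact h1 ▸ Ideal.add_mem _ ht ht'
        · rintro y y' hy hy' ⟨t, ht⟩ ⟨t', ht'⟩
          refine ⟨t * t', ?_⟩
          have h1 : (⟨y * y', E'.mul_mem hy hy'⟩ : E') - ψ (t * t') =
              (⟨y', hy'⟩ : E') * ((⟨y, hy⟩ : E') - ψ t) + ψ t * ((⟨y', hy'⟩ : E') - ψ t') := by
            rw [map_mul]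
            have h2 : (⟨y * y', E'.mul_mem hy hy'⟩ : E') = ⟨y, hy⟩ * ⟨y', hy'⟩ := rfl
            rw [h2]
            ring
          exact h1 ▸ Ideal.add_mem _ (Ideal.mul_mem_left _ _ ht) (Ideal.mul_mem_left _ _ ht')
      rintro ⟨y, hy⟩
      exact key y hy
  -- the idempotent belongs to `E'`
  have he' : e = Φ s + algebraMap A' L' d₀ := by
    apply (hu'.pow n).mul_left_cancel
    rw [he, mul_add]
    congr 1
    rw [← hΦ c₀, ← hs, map_mul, map_pow, hΦ]
  have heE : e ∈ E' := by
    rw [he']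
    exact E'.add_mem hsE' (E'.algebraMap_mem _)
  have h1 : (⟨e, heE⟩ : E') * (1 - ⟨e, heE⟩) = 0 := by
    apply Subtype.ext
    change e * (1 - e) = 0
    rw [mul_sub, mul_one, hee, sub_self]
  rcases IsLocalRing.isUnit_or_isUnit_one_sub_self (⟨e, heE⟩ : E') with h | h
  · right
    have h2 := h.mul_right_eq_zero.mp h1
    exact (sub_eq_zero.mp (congrArg Subtype.val h2)).symm
  · left
    have h2 := h.mul_left_eq_zero.mp h1
    exact congrArg Subtype.val h2

/-- The reduced case. -/
theorem isPConn_of_flat_of_isReduced [IsNoetherianRing A] [HenselianLocalRing A] [IsReduced A]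
    [IsNoetherianRing A'] [Module.Flat A A']
    (hm : (maximalIdeal A).map (algebraMap A A') = maximalIdeal A')
    (hres : ∀ y : A', ∃ a : A, y - algebraMap A A' a ∈ maximalIdeal A')
    (hA : IsPConn A) (hdim : (2 : WithBot ℕ∞) ≤ ringKrullDim A) : IsPConn A' := by
  classical
  have hdim' : ∀ p ∈ minimalPrimes A, (2 : WithBot ℕ∞) ≤ ringKrullDim (A ⧸ p) :=
    fun p hp => two_le_dim_of_isPConn hA hdim hp
  -- a regular element
  obtain ⟨x, hxm, hx⟩ := exists_regular hdim
  have hx' : algebraMap A A' x ∈ nonZeroDivisors A' := by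
    rw [mem_nonZeroDivisors_iff_right]
    intro z hz
    refine Module.Flat.isSMulRegular_of_nonZeroDivisors (M := A') hx ?_
    simp only [Algebra.smul_def]
    rw [mul_comm, hz, mul_zero]
  -- reduction to `J₁ J₂ = 0`
  suffices key : ∀ J₁ J₂ : Ideal A', J₁ * J₂ = ⊥ → (∃ n, maximalIdeal A' ^ n ≤ J₁ ⊔ J₂) →
      (∃ n, maximalIdeal A' ^ n ≤ J₁) ∨ (∃ n, maximalIdeal A' ^ n ≤ J₂) by
    rintro J₁ J₂ hJ ⟨n, hn⟩
    obtain ⟨k, hk⟩ := IsNoetherianRing.isNilpotent_nilradical A'
    have h1 : J₁ ^ (k + 1) * J₂ ^ (k + 1) = ⊥ := by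
      rw [← mul_pow, eq_bot_iff]
      refine (Ideal.pow_right_mono hJ _).trans ?_
      rw [pow_succ, hk, zero_mul]
      exact le_rfl
    have h2 : ∃ n, maximalIdeal A' ^ n ≤ J₁ ^ (k + 1) ⊔ J₂ ^ (k + 1) := by
      refine exists_pow_le_of_forall _ fun p hp hle => ?_
      exact eq_of_pow_le hn hp (sup_le (hp.le_of_pow_le (le_sup_left.trans hle))
        (hp.le_of_pow_le (le_sup_right.trans hle)))
    have h3 : ∀ (J : Ideal A') (n : ℕ), maximalIdeal A' ^ n ≤ J ^ (k + 1) →
        ∃ n, maximalIdeal A' ^ n ≤ J := by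
      intro J n hn
      refine exists_pow_le_of_forall _ fun p hp hle => ?_
      exact eq_of_pow_le hn hp ((Ideal.pow_le_self k.succ_ne_zero).trans hle)
    exact (key _ _ h1 h2).imp (fun ⟨n, hn⟩ => h3 _ n hn) fun ⟨n, hn⟩ => h3 _ n hn
  rintro J₁ J₂ hJ ⟨n, hn⟩
  obtain ⟨j₁, hj₁, j₂, hj₂, hj⟩ := Submodule.mem_sup.mp
    (hn (Ideal.pow_mem_pow (hm ▸ Ideal.mem_map_of_mem (algebraMap A A') hxm) n))
  have hmul : ∀ a ∈ J₁, ∀ b ∈ J₂, a * b = 0 := fun a ha b hb => by
    have : a * b ∈ J₁ * J₂ := Ideal.mul_mem_mul ha hb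
    rwa [hJ, Ideal.mem_bot] at this
  -- the elements of the power of the maximal ideal
  have hdec : ∀ a ∈ maximalIdeal A ^ n, ∃ i₁ ∈ J₁, ∃ i₂ ∈ J₂, algebraMap A A' a = i₁ + i₂ ∧
      algebraMap A A' a * j₁ = algebraMap A A' x ^ n * i₁ := by
    intro a ha
    have h1 : algebraMap A A' a ∈ J₁ ⊔ J₂ := by
      apply hn
      rw [← hm, ← Ideal.map_pow]
      exact Ideal.mem_map_of_mem _ ha
    obtain ⟨i₁, hi₁, i₂, hi₂, hi⟩ := Submodule.mem_sup.mp h1
    refine ⟨i₁, hi₁, i₂, hi₂, hi.symm, ?_⟩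
    rw [← hi, ← hj, add_mul, add_mul, mul_comm i₂, hmul j₁ hj₁ i₂ hi₂, mul_comm j₂,
      hmul i₁ hi₁ j₂ hj₂, mul_comm]
  obtain ⟨k, f, hf⟩ : ∃ (k : ℕ) (f : Fin k → A), Ideal.span (Set.range f) = maximalIdeal A ^ n := by
    obtain ⟨k, f, hf⟩ := Submodule.fg_iff_exists_fin_generating_family.mp
      (IsNoetherian.noetherian (maximalIdeal A ^ n))
    exact ⟨k, f, hf⟩
  have hfm : ∀ j, f j ∈ maximalIdeal A ^ n := fun j => hf ▸ Ideal.subset_span ⟨j, rfl⟩
  choose i₁ hi₁ i₂ hi₂ hi hij using fun j => hdec (f j) (hfm j)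
  obtain ⟨l, c, d, hjc, hcf⟩ := Ega4B.Zariski.exists_colon_of_flat f (x ^ n) j₁ i₁ (by
    intro j
    rw [Algebra.smul_def, Algebra.smul_def, map_pow, hij])
  have hcf' : ∀ i, ∀ a ∈ maximalIdeal A ^ n, a * c i ∈ Ideal.span {x ^ n} := by
    intro i a ha
    rw [← hf] at ha
    refine Submodule.span_induction ?_ ?_ ?_ ?_ ha
    · rintro _ ⟨j, rfl⟩
      exact hcf i j
    · rw [zero_mul]; exact Ideal.zero_mem _
    · intro a b _ _ ha hb
      rw [add_mul]
      exact Ideal.add_mem _ ha hb
    · intro a b _ hb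
      rw [smul_eq_mul, mul_assoc]
      exact Ideal.mul_mem_left _ _ hb
  -- approximate the `d i`
  choose α hα using fun i => exists_sub_mem_pow hm hres n (d i)
  have hμ : ∀ i, ∃ w, algebraMap A A' (c i) * (d i - algebraMap A A' (α i)) =
      algebraMap A A' x ^ n * w := by
    intro i
    have h1 : ∀ z ∈ (maximalIdeal A ^ n).map (algebraMap A A'), ∃ w,
        algebraMap A A' (c i) * z = algebraMap A A' x ^ n * w := by
      intro z hz
      refine Submodule.span_induction ?_ ?_ ?_ ?_ hz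
      · rintro _ ⟨b, hb, rfl⟩
        obtain ⟨w, hw⟩ := Ideal.mem_span_singleton.mp (hcf' i b hb)
        exact ⟨algebraMap A A' w, by rw [← map_mul, mul_comm, hw, map_mul, map_pow]⟩
      · exact ⟨0, by rw [mul_zero, mul_zero]⟩
      · rintro z z' - - ⟨w, hw⟩ ⟨w', hw'⟩
        exact ⟨w + w', by rw [mul_add, mul_add, hw, hw']⟩
      · rintro b z - ⟨w, hw⟩
        exact ⟨b * w, by rw [smul_eq_mul, mul_left_comm, hw, mul_left_comm]⟩
    exact h1 _ (hα i)
  choose w hw using hμ
  set c₀ : A := ∑ i, c i * α i with hc₀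
  set d₀ : A' := ∑ i, w i with hd₀
  have hj₁' : j₁ = algebraMap A A' c₀ + algebraMap A A' x ^ n * d₀ := by
    rw [hjc, hc₀, hd₀, map_sum, Finset.mul_sum, ← Finset.sum_add_distrib]
    refine Finset.sum_congr rfl fun i _ => ?_
    rw [← hw, Algebra.smul_def, map_mul]
    ring
  have hc₀m : ∀ a ∈ maximalIdeal A ^ n, ∃ b, a * c₀ = x ^ n * b := by
    intro a ha
    have h1 : a * c₀ ∈ Ideal.span {x ^ n} := by
      rw [hc₀, Finset.mul_sum]
      refine Ideal.sum_mem _ fun i _ => ?_
      rw [← mul_assoc]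
      exact Ideal.mul_mem_right _ _ (hcf' i a ha)
    exact Ideal.mem_span_singleton.mp h1
  have hinj' : Function.Injective (algebraMap A' (Localization.Away (algebraMap A A' x))) :=
    IsLocalization.injective _ (Submonoid.powers_le.mpr hx')
  have hu' : IsUnit (algebraMap A' (Localization.Away (algebraMap A A' x)) (algebraMap A A' x) ^ n) :=
    (IsLocalization.Away.algebraMap_isUnit _).pow n
  obtain ⟨u, hu⟩ := hu'
  have hjj : j₁ * j₁ = algebraMap A A' x ^ n * j₁ := by
    rw [← hj, add_mul, mul_comm j₂, hmul j₁ hj₁ j₂ hj₂, add_zero]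
  have hpow : ∀ J : Ideal A', (∀ a ∈ maximalIdeal A ^ n, algebraMap A A' a ∈ J) →
      maximalIdeal A' ^ n ≤ J := by
    intro J h
    rw [← hm, ← Ideal.map_pow, Ideal.map_le_iff_le_comap]
    exact h
  have hcancel : ∀ y z : A', algebraMap A A' x ^ n * y = algebraMap A A' x ^ n * z → y = z := by
    intro y z h
    have h1 : algebraMap A A' x ^ n ∈ nonZeroDivisors A' := pow_mem hx' n
    exact (mul_cancel_left_mem_nonZeroDivisors h1).mp h
  have hx0 : ∀ y : A', (↑u⁻¹ : Localization.Away (algebraMap A A' x)) * algebraMap A' _ y = 0 → y = 0 := by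
    intro y h
    apply hinj'
    rw [map_zero]
    exact (Units.isUnit _).mul_right_eq_zero.mp h
  rcases eq_zero_or_one_of_add hm hres hA hdim hxm hx hx' n c₀ hc₀m d₀
      (↑u⁻¹ * algebraMap A' _ j₁) (by
        have h1 : (↑u⁻¹ * algebraMap A' (Localization.Away (algebraMap A A' x)) j₁) *
            (↑u⁻¹ * algebraMap A' _ j₁) = ↑u⁻¹ * (↑u⁻¹ * algebraMap A' _ (j₁ * j₁)) := by
          rw [map_mul]; ring
        rw [h1, hjj, map_mul, map_pow, ← hu, Units.inv_mul_cancel_left])
      (by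
        rw [← hu, ← mul_assoc, Units.mul_inv, one_mul, hj₁', map_add, map_mul, map_pow, ← hu]) with h | h
  · right
    have h1 : j₁ = 0 := hx0 _ h
    refine ⟨n, hpow _ fun a ha => ?_⟩
    obtain ⟨b₁, hb₁, b₂, hb₂, hb, hb'⟩ := hdec a ha
    have h2 : b₁ = 0 := hcancel _ _ (by rw [← hb', h1, mul_zero, mul_zero])
    rw [hb, h2, zero_add]
    exact hb₂
  · left
    have h1 : j₁ = algebraMap A A' x ^ n := by
      apply hinj'
      have h2 := congrArg (fun z => (u : Localization.Away (algebraMap A A' x)) * z) h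
      simp only [← mul_assoc, Units.mul_inv, one_mul, mul_one] at h2
      rw [h2, hu, map_pow]
    refine ⟨n, hpow _ fun a ha => ?_⟩
    obtain ⟨b₁, hb₁, b₂, hb₂, hb, hb'⟩ := hdec a ha
    have h2 : algebraMap A A' a = b₁ := hcancel _ _ (by rw [← hb', h1, mul_comm])
    rw [h2]
    exact hb₁

/-- Let `A` be a henselian Noetherian local ring of dimension at least two with connected punctured
spectrum and `A'` a flat Noetherian local algebra with the same residue field and
`m A' = m'`.  Then the punctured spectrum of `A'` is connected. -/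
theorem isPConn_of_flat [IsNoetherianRing A] [HenselianLocalRing A]
    [IsNoetherianRing A'] [Module.Flat A A']
    (hm : (maximalIdeal A).map (algebraMap A A') = maximalIdeal A')
    (hres : ∀ y : A', ∃ a : A, y - algebraMap A A' a ∈ maximalIdeal A')
    (hA : IsPConn A) (hdim : (2 : WithBot ℕ∞) ≤ ringKrullDim A) : IsPConn A' := by
  let N := nilradical A
  have hNle : N ≤ maximalIdeal A := nilradical_le_prime _
  have hN'le : N.map (algebraMap A A') ≤ nilradical A' := by
    rw [Ideal.map_le_iff_le_comap]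
    intro a ha
    rw [mem_nilradical] at ha
    rw [Ideal.mem_comap, mem_nilradical]
    exact ha.map _
  have hnt : Nontrivial (A ⧸ N) := Ideal.Quotient.nontrivial_iff.mpr
    (fun h => (maximalIdeal.isMaximal A).ne_top (top_le_iff.mp (h ▸ hNle)))
  have hnt' : Nontrivial (A' ⧸ N.map (algebraMap A A')) := Ideal.Quotient.nontrivial_iff.mpr
    (fun h => (maximalIdeal.isMaximal A').ne_top
      (top_le_iff.mp (h ▸ hN'le.trans (nilradical_le_prime _))))
  have hloc : IsLocalRing (A ⧸ N) := IsLocalRing.of_surjective' _ Ideal.Quotient.mk_surjective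
  have hloc' : IsLocalRing (A' ⧸ N.map (algebraMap A A')) :=
    IsLocalRing.of_surjective' _ Ideal.Quotient.mk_surjective
  have hint : Algebra.IsIntegral A (A ⧸ N) := Algebra.IsIntegral.of_finite A _
  have hhens : HenselianLocalRing (A ⧸ N) :=
    Etrest.IntHens.henselianLocalRing_of_isIntegral A (A ⧸ N)
  have hred : IsReduced (A ⧸ N) :=
    (Ideal.isRadical_iff_quotient_reduced N).mp (Ideal.radical_isRadical _)
  have hflat : Module.Flat (A ⧸ N) (A' ⧸ N.map (algebraMap A A')) := Module.Flat.of_linearEquiv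
    (Algebra.TensorProduct.quotIdealMapEquivQuotTensor A' N).toLinearEquiv
  have hmap : ∀ a : A, algebraMap (A ⧸ N) (A' ⧸ N.map (algebraMap A A')) (Ideal.Quotient.mk N a) =
      Ideal.Quotient.mk _ (algebraMap A A' a) := fun a => rfl
  have h1 : IsPConn (A ⧸ N) := isPConn_of_surjective (Ideal.Quotient.mk N)
    Ideal.Quotient.mk_surjective (by rw [Ideal.mk_ker]) hA
  have h2 : (2 : WithBot ℕ∞) ≤ ringKrullDim (A ⧸ N) := by
    rwa [ringKrullDim_quotient, PrimeSpectrum.zeroLocus_nilradical,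
      ← Order.krullDim_eq_of_orderIso (OrderIso.Set.univ (α := PrimeSpectrum A)).symm]
  have h3 : (maximalIdeal (A ⧸ N)).map (algebraMap (A ⧸ N) (A' ⧸ N.map (algebraMap A A'))) =
      maximalIdeal _ := by
    rw [← map_maximalIdeal (Ideal.Quotient.mk N) Ideal.Quotient.mk_surjective,
      ← map_maximalIdeal (Ideal.Quotient.mk (N.map (algebraMap A A'))) Ideal.Quotient.mk_surjective,
      ← hm, Ideal.map_map, Ideal.map_map]
    rfl
  have h4 : ∀ y : A' ⧸ N.map (algebraMap A A'), ∃ a : A ⧸ N,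
      y - algebraMap (A ⧸ N) _ a ∈ maximalIdeal _ := by
    intro y
    obtain ⟨y, rfl⟩ := Ideal.Quotient.mk_surjective y
    obtain ⟨a, ha⟩ := hres y
    refine ⟨Ideal.Quotient.mk N a, ?_⟩
    rw [hmap, ← map_sub,
      ← map_maximalIdeal (Ideal.Quotient.mk (N.map (algebraMap A A'))) Ideal.Quotient.mk_surjective]
    exact Ideal.mem_map_of_mem _ ha
  exact isPConn_of_quotient (Ideal.Quotient.mk (N.map (algebraMap A A')))
    Ideal.Quotient.mk_surjective (by rw [Ideal.mk_ker]; exact hN'le)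
    (isPConn_of_flat_of_isReduced h3 h4 h1 h2)

end Flat

/-- The completion of a henselian Noetherian local ring of dimension at least two with connected
punctured spectrum has connected punctured spectrum. -/
theorem isPConn_adicCompletion (A : Type u) [CommRing A] [IsNoetherianRing A] [HenselianLocalRing A]
    (hA : IsPConn A) (hdim : (2 : WithBot ℕ∞) ≤ ringKrullDim A) :
    IsPConn (AdicCompletion (maximalIdeal A) A) := by
  have := Ega4A.CplFlat.isNoetherianRing_cpl A
  have : Module.Flat A (AdicCompletion (maximalIdeal A) A) := AdicCompletion.flat_of_isNoetherian _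
  refine isPConn_of_flat (AdicCompletion.maximalIdeal_eq_map).symm ?_ hA hdim
  intro y
  obtain ⟨a, ha⟩ := Ega4A.CplFlat.surjective_algebraMap_quotient A 1 (Ideal.Quotient.mk _ y)
  refine ⟨a, ?_⟩
  rw [pow_one] at ha
  rw [AdicCompletion.maximalIdeal_eq_map]
  exact (Ideal.Quotient.eq.mp ha.symm)

end Groth.Agent.Sga2lef.H75.FlatConn
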