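import Groth.Prelude.Def_FEt
import Mathlib.RingTheory.Ideal.KrullsHeightTheorem
import Mathlib.RingTheory.KrullDimension.NonZeroDivisors
import Mathlib.RingTheory.KrullDimension.Basic
import Mathlib.RingTheory.Artinian.Ring
import Mathlib.Topology.Connected.Clopen

/-!
# Connectedness of the punctured spectrum in terms of ideals
-/

set_option autoImplicit false
universe u v

open IsLocalRing AlgebraicGeometry CategoryTheory

namespace Groth.Agent.Sga2lef.H75.PConn

/-- The punctured spectrum of a local ring is connected or empty, in terms of ideals. -/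
def IsPConn (A : Type u) [CommRing A] [IsLocalRing A] : Prop :=
  ∀ J₁ J₂ : Ideal A, J₁ * J₂ ≤ nilradical A → (∃ n, maximalIdeal A ^ n ≤ J₁ ⊔ J₂) →
    (∃ n, maximalIdeal A ^ n ≤ J₁) ∨ (∃ n, maximalIdeal A ^ n ≤ J₂)

variable {A : Type u} [CommRing A] [IsLocalRing A]

theorem exists_pow_le_of_forall [IsNoetherianRing A] (J : Ideal A)
    (h : ∀ p : Ideal A, p.IsPrime → J ≤ p → p = maximalIdeal A) : ∃ n, maximalIdeal A ^ n ≤ J := by
  have h1 : maximalIdeal A ≤ J.radical := by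
    rw [Ideal.radical_eq_sInf]
    exact le_sInf fun p hp => (h p hp.2 hp.1).ge
  exact (Ideal.exists_pow_le_of_le_radical_of_fg h1 (IsNoetherian.noetherian _))

theorem eq_of_pow_le {J : Ideal A} {n : ℕ} (h : maximalIdeal A ^ n ≤ J) {p : Ideal A} (hp : p.IsPrime)
    (hJ : J ≤ p) : p = maximalIdeal A :=
  ((maximalIdeal.isMaximal A).eq_of_le hp.ne_top (hp.le_of_pow_le (h.trans hJ))).symm

theorem mem_puncturedSpec (y : PrimeSpectrum A) :
    y ∈ FEt.puncturedSpec A ↔ y.asIdeal ≠ maximalIdeal A := by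
  change y ∈ ({IsLocalRing.closedPoint A}ᶜ : Set (PrimeSpectrum A)) ↔ _
  rw [Set.mem_compl_singleton_iff, Ne, Ne, PrimeSpectrum.ext_iff]
  rfl

theorem pConn_of_preconnectedSpace [IsNoetherianRing A]
    (h : PreconnectedSpace (FEt.puncturedSpec A : Scheme.{u})) : IsPConn A := by
  rintro J₁ J₂ hJ ⟨n, hn⟩
  let ι : ↥((FEt.puncturedSpec A).toScheme) → PrimeSpectrum A := (FEt.puncturedSpec A).ι
  have hι : Continuous ι := (FEt.puncturedSpec A).ι.continuous
  have hmem : ∀ z, ι z ∈ FEt.puncturedSpec A := fun z => z.2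
  have hrange : ∀ y : PrimeSpectrum A, y ∈ FEt.puncturedSpec A → ∃ z, ι z = y :=
    fun y hy => ⟨⟨y, hy⟩, rfl⟩
  have hcl : ∀ J : Ideal A, IsClosed (ι ⁻¹' PrimeSpectrum.zeroLocus (J : Set A)) := fun J =>
    (PrimeSpectrum.isClosed_zeroLocus _).preimage hι
  have hpre := isPreconnected_closed_iff.mp (h.isPreconnected_univ)
    (ι ⁻¹' PrimeSpectrum.zeroLocus (J₁ : Set A)) (ι ⁻¹' PrimeSpectrum.zeroLocus (J₂ : Set A))
    (hcl _) (hcl _) (by
      intro z _
      have h1 : J₁ * J₂ ≤ (ι z).asIdeal := hJ.trans (nilradical_le_prime _)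
      exact ((ι z).isPrime.mul_le.mp h1).imp id id)
  by_contra! hcon
  have key : ∀ J : Ideal A, (∀ n, ¬ maximalIdeal A ^ n ≤ J) →
      (Set.univ ∩ ι ⁻¹' PrimeSpectrum.zeroLocus (J : Set A)).Nonempty := by
    intro J hJn
    by_contra hne
    obtain ⟨n, hn⟩ := exists_pow_le_of_forall J (by
      intro p hp hJp
      by_contra hpm
      obtain ⟨z, hz⟩ := hrange ⟨p, hp⟩ ((mem_puncturedSpec _).mpr hpm)
      apply hne
      refine ⟨z, Set.mem_univ _, ?_⟩
      rw [Set.mem_preimage, hz]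
      exact hJp)
    exact hJn n hn
  obtain ⟨z, _, hz1, hz2⟩ := hpre (key _ hcon.1) (key _ hcon.2)
  exact (mem_puncturedSpec _).mp (hmem z) (eq_of_pow_le hn (ι z).isPrime (sup_le hz1 hz2))

theorem preconnectedSpace_of_pConn [IsNoetherianRing A] (h : IsPConn A) :
    PreconnectedSpace (FEt.puncturedSpec A : Scheme.{u}) := by
  let ι : ↥((FEt.puncturedSpec A).toScheme) → PrimeSpectrum A := (FEt.puncturedSpec A).ι
  have hind : Topology.IsInducing ι := (FEt.puncturedSpec A).ι.isOpenEmbedding.isInducing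
  have hmem : ∀ z, ι z ∈ FEt.puncturedSpec A := fun z => z.2
  have hrange : ∀ y : PrimeSpectrum A, y ∈ FEt.puncturedSpec A → ∃ z, ι z = y :=
    fun y hy => ⟨⟨y, hy⟩, rfl⟩
  refine ⟨isPreconnected_closed_iff.mpr ?_⟩
  intro Z₁ Z₂ h1 h2 h12 ⟨z₁, _, hz₁⟩ ⟨z₂, _, hz₂⟩
  obtain ⟨W₁, hW₁, rfl⟩ := hind.isClosed_iff.mp h1
  obtain ⟨W₂, hW₂, rfl⟩ := hind.isClosed_iff.mp h2
  obtain ⟨J₁, rfl⟩ := (PrimeSpectrum.isClosed_iff_zeroLocus_ideal _).mp hW₁
  obtain ⟨J₂, rfl⟩ := (PrimeSpectrum.isClosed_iff_zeroLocus_ideal _).mp hW₂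
  by_contra hne
  have h12' : ∀ p : Ideal A, p.IsPrime → p ≠ maximalIdeal A → J₁ ≤ p ∨ J₂ ≤ p := by
    intro p hp hpm
    obtain ⟨z, hz⟩ := hrange ⟨p, hp⟩ ((mem_puncturedSpec _).mpr hpm)
    have := h12 (Set.mem_univ z)
    rw [Set.mem_union, Set.mem_preimage, Set.mem_preimage, hz] at this
    exact this
  have hsup : ∃ n, maximalIdeal A ^ n ≤ J₁ ⊔ J₂ := by
    refine exists_pow_le_of_forall _ fun p hp hle => ?_
    by_contra hpm
    obtain ⟨z, hz⟩ := hrange ⟨p, hp⟩ ((mem_puncturedSpec _).mpr hpm)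
    apply hne
    refine ⟨z, Set.mem_univ _, ?_, ?_⟩
    · rw [Set.mem_preimage, hz]
      exact le_sup_left.trans hle
    · rw [Set.mem_preimage, hz]
      exact le_sup_right.trans hle
  have hne1 : ∀ (J : Ideal A) (z), z ∈ ι ⁻¹' PrimeSpectrum.zeroLocus (J : Set A) →
      ∀ n, ¬ maximalIdeal A ^ n ≤ J := by
    intro J z hz n hn
    exact (mem_puncturedSpec _).mp (hmem z) (eq_of_pow_le hn (ι z).isPrime hz)
  have hJm : ∀ (J : Ideal A) (z), z ∈ ι ⁻¹' PrimeSpectrum.zeroLocus (J : Set A) →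
      J ≤ maximalIdeal A := by
    intro J z hz
    exact le_trans hz (le_maximalIdeal (ι z).isPrime.ne_top)
  have hmul : J₁ * J₂ ≤ nilradical A := by
    rw [nilradical_eq_sInf]
    refine le_sInf fun p hp => ?_
    by_cases hpm : p = maximalIdeal A
    · rw [hpm]
      exact Ideal.mul_le_right.trans (hJm _ _ hz₂)
    · rcases h12' p hp hpm with h | h
      · exact Ideal.mul_le_left.trans h
      · exact Ideal.mul_le_right.trans h
  rcases h J₁ J₂ hmul hsup with ⟨n, hn⟩ | ⟨n, hn⟩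
  · exact hne1 _ _ hz₁ n hn
  · exact hne1 _ _ hz₂ n hn

/-- A ring of dimension at least `n` has a component of dimension at least `n`. -/
theorem exists_minimalPrime_le_dim (B : Type u) [CommRing B] (n : ℕ)
    (hn : (n : WithBot ℕ∞) ≤ ringKrullDim B) :
    ∃ p ∈ minimalPrimes B, (n : WithBot ℕ∞) ≤ ringKrullDim (B ⧸ p) := by
  obtain ⟨l, hl⟩ := Order.le_krullDim_iff.1 hn
  obtain ⟨q, hq, hql⟩ := Ideal.exists_minimalPrimes_le (J := l.head.asIdeal) bot_le
  refine ⟨q, hq, ?_⟩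
  rw [ringKrullDim_quotient]
  let l' : LTSeries (PrimeSpectrum.zeroLocus (R := B) q) :=
    { length := l.length
      toFun := fun i => ⟨l i, fun x hx => (LTSeries.head_le l i) (hql hx)⟩
      step := fun i => l.step i }
  have := Order.LTSeries.length_le_krullDim l'
  rw [← hl]
  exact this

/-- If the quotient by a prime has dimension at most one, the only primes above are it and the
maximal ideal. -/
theorem eq_or_eq_of_dim_lt_two (p : Ideal A) [hp : p.IsPrime] (h : ¬ (2 : WithBot ℕ∞) ≤ ringKrullDim (A ⧸ p))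
    (P : Ideal A) [hP : P.IsPrime] (hle : p ≤ P) : P = p ∨ P = maximalIdeal A := by
  by_contra! hcon
  apply h
  rw [ringKrullDim_quotient]
  let l : LTSeries (PrimeSpectrum.zeroLocus (R := A) p) :=
    { length := 2
      toFun := ![⟨⟨p, hp⟩, le_refl p⟩, ⟨⟨P, hP⟩, hle⟩,
        ⟨⟨maximalIdeal A, inferInstance⟩, le_maximalIdeal hp.ne_top⟩]
      step := by
        intro i
        fin_cases i
        · exact lt_of_le_of_ne hle (Ne.symm hcon.1)
        · exact lt_of_le_of_ne (le_maximalIdeal hP.ne_top) hcon.2 }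
  exact Order.LTSeries.length_le_krullDim l

theorem ne_maximalIdeal_of_mem_minimalPrimes (hdim : (2 : WithBot ℕ∞) ≤ ringKrullDim A) {q : Ideal A}
    (hq : q ∈ minimalPrimes A) : q ≠ maximalIdeal A := by
  rintro rfl
  have h1 : (maximalIdeal A).height = 0 := Ideal.height_eq_zero_iff.mpr hq
  have h2 := IsLocalRing.maximalIdeal_height_eq_ringKrullDim (R := A)
  rw [h1] at h2
  rw [← h2] at hdim
  exact absurd hdim (by decide)

/-- If the punctured spectrum is connected and the dimension is at least two, so are the dimensions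
of the components. -/
theorem two_le_dim_of_isPConn [IsNoetherianRing A] (h : IsPConn A)
    (hdim : (2 : WithBot ℕ∞) ≤ ringKrullDim A) {p : Ideal A} (hp : p ∈ minimalPrimes A) :
    (2 : WithBot ℕ∞) ≤ ringKrullDim (A ⧸ p) := by
  by_contra hcon
  have hpp : p.IsPrime := hp.1.1
  have hfin : (minimalPrimes A \ {p}).Finite := (minimalPrimes.finite_of_isNoetherianRing A).subset
    Set.sdiff_subset
  have hprime : ∀ q ∈ minimalPrimes A, q.IsPrime := fun q hq => hq.1.1
  have hmul : p * sInf (minimalPrimes A \ {p}) ≤ nilradical A := by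
    rw [nilradical, ← Ideal.sInf_minimalPrimes]
    refine le_sInf fun q hq => ?_
    by_cases hqp : q = p
    · rw [hqp]; exact Ideal.mul_le_left
    · have h1 : sInf (minimalPrimes A \ {p}) ≤ q := sInf_le ⟨hq, hqp⟩
      exact Ideal.mul_le_right.trans h1
  have hsup : ∃ n, maximalIdeal A ^ n ≤ p ⊔ sInf (minimalPrimes A \ {p}) := by
    refine exists_pow_le_of_forall _ fun P hP hle => ?_
    rcases eq_or_eq_of_dim_lt_two p hcon P (le_sup_left.trans hle) with h1 | h1
    · exfalso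
      subst h1
      have h2 : sInf (minimalPrimes A \ {P}) ≤ P := le_sup_right.trans hle
      rw [← hfin.coe_toFinset, ← Finset.inf_id_eq_sInf, Ideal.IsPrime.inf_le' hP] at h2
      obtain ⟨q, hq, hqP⟩ := h2
      rw [Set.Finite.mem_toFinset] at hq
      exact hq.2 (le_antisymm hqP (hp.2 ⟨hprime q hq.1, bot_le⟩ hqP))
    · exact h1
  have hne := fun (q : Ideal A) (hq : q ∈ minimalPrimes A) (n : ℕ) (hn : maximalIdeal A ^ n ≤ q) =>
    ne_maximalIdeal_of_mem_minimalPrimes hdim hq (eq_of_pow_le hn (hprime q hq) le_rfl)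
  rcases h _ _ hmul hsup with ⟨n, hn⟩ | ⟨n, hn⟩
  · exact hne p hp n hn
  · obtain ⟨q, hq, hqd⟩ := exists_minimalPrime_le_dim A 2 hdim
    by_cases hqp : q = p
    · exact hcon (hqp ▸ hqd)
    · exact hne q hq n (hn.trans (sInf_le ⟨hq, hqp⟩))

end Groth.Agent.Sga2lef.H75.PConn
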