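import Groth.Agent.Etrest.IntHens
import Groth.Agent.FlatA.DimFin
import Mathlib.RingTheory.Ideal.KrullsHeightTheorem
import Mathlib.RingTheory.Ideal.Height
import Mathlib.RingTheory.KrullDimension.Basic

/-!
# Sections over the punctured spectrum of a henselian local ring are integral
-/

set_option autoImplicit false
universe u v

open IsLocalRing Polynomial

namespace Groth.Agent.Sga2lef.H75.PunctInt

/-- An element lying in the ring generated by its inverse is integral. -/
theorem isIntegral_of_mem_adjoin_inv {D : Type u} [CommRing D] {K : Type v} [Field K] [Algebra D K]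
    {x : K} (hx : x ∈ Algebra.adjoin D {x⁻¹}) : IsIntegral D x := by
  rcases eq_or_ne x 0 with rfl | h0
  · exact isIntegral_zero
  rw [Algebra.adjoin_singleton_eq_range_aeval] at hx
  obtain ⟨p, hp⟩ := hx
  replace hp : aeval x⁻¹ p = x := hp
  refine ⟨X ^ (p.natDegree + 1) - p.reverse, ?_, ?_⟩
  · refine monic_X_pow_sub ?_
    refine lt_of_le_of_lt ?_ (Nat.cast_lt.mpr (Nat.lt_succ_self p.natDegree))
    exact (degree_le_natDegree).trans (Nat.cast_le.mpr (reverse_natDegree_le p))
  · have h2 : eval₂ (algebraMap D K) x p.reverse = x ^ p.natDegree * x := by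
      have hi : Invertible x⁻¹ := invertibleOfNonzero (inv_ne_zero h0)
      have h3 := eval₂_reverse_mul_pow (algebraMap D K) x⁻¹ p
      have h4 : ⅟(x⁻¹) = x := by
        rw [invOf_eq_inv, inv_inv]
      rw [h4] at h3
      have h5 : eval₂ (algebraMap D K) x⁻¹ p = x := hp
      rw [h5, inv_pow] at h3
      have h6 : x ^ p.natDegree ≠ 0 := pow_ne_zero _ h0
      field_simp at h3
      rw [h3]
    rw [eval₂_sub, eval₂_X_pow, h2]
    ring

section Domain

variable {D : Type u} [CommRing D] [IsLocalRing D] {S : Type u} [CommRing S] [Algebra D S] (y : S)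

omit [IsLocalRing D] in
theorem aeval_eq (p : D[X]) : aeval y p = y * aeval y p.divX + algebraMap D S (p.coeff 0) := by
  calc aeval y p = aeval y (p.divX * X + C (p.coeff 0)) := by rw [p.divX_mul_X_add]
    _ = _ := by rw [map_add, map_mul, aeval_X, aeval_C, mul_comm]

theorem exists_coeff_notMem (p : D[X]) (hp : p ∉ (maximalIdeal D).map (C : D →+* D[X])) (j : ℕ)
    (h : y ^ j * aeval y p ∈ (maximalIdeal D).map (algebraMap D S)) :
    ∃ (g : D[X]) (k : ℕ), g.coeff 0 ∉ maximalIdeal D ∧
      y ^ k * aeval y g ∈ (maximalIdeal D).map (algebraMap D S) := by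
  induction hn : p.natDegree using Nat.strong_induction_on generalizing p j with
  | _ n ih =>
    by_cases h0 : p.coeff 0 ∈ maximalIdeal D
    · have hpd : p.divX ∉ (maximalIdeal D).map (C : D →+* D[X]) := by
        intro h1
        apply hp
        rw [Ideal.mem_map_C_iff] at h1 ⊢
        intro i
        cases i with
        | zero => exact h0
        | succ i => rw [← coeff_divX]; exact h1 i
      have hdeg : p.divX.natDegree < n := by
        rw [natDegree_divX_eq_natDegree_tsub_one, hn]
        have : n ≠ 0 := by
          rintro rfl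
          apply hp
          rw [eq_C_of_natDegree_eq_zero hn]
          exact Ideal.mem_map_of_mem _ h0
        omega
      refine ih _ hdeg p.divX hpd (j + 1) ?_ rfl
      have h2 : y ^ (j + 1) * aeval y p.divX =
          y ^ j * aeval y p - y ^ j * algebraMap D S (p.coeff 0) := by
        rw [aeval_eq y p]; ring
      rw [h2]
      exact Ideal.sub_mem _ h (Ideal.mul_mem_left _ _ (Ideal.mem_map_of_mem _ h0))
    · exact ⟨p, j, h0, h⟩

/-- A prime over the maximal ideal containing the generator `y` is determined. -/
theorem mem_iff (hS : Function.Surjective (aeval y : D[X] →ₐ[D] S)) (q : Ideal S) [q.IsPrime]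
    (hq : q.comap (algebraMap D S) = maximalIdeal D) (hy : y ∈ q) (p : D[X]) :
    aeval y p ∈ q ↔ p.coeff 0 ∈ maximalIdeal D := by
  rw [← hq, Ideal.mem_comap, aeval_eq y p]
  exact Ideal.add_mem_iff_right _ (Ideal.mul_mem_right _ _ hy)

end Domain

/-- A fraction of a henselian Noetherian local domain of dimension at least two whose denominators
form an ideal containing a power of each element of the maximal ideal is integral. -/
theorem isIntegral_of_domain {D : Type u} [CommRing D] [IsDomain D] [IsNoetherianRing D]
    [HenselianLocalRing D] {K : Type u} [Field K] [Algebra D K]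
    (hinj : Function.Injective (algebraMap D K)) (hdim : (2 : WithBot ℕ∞) ≤ ringKrullDim D) (x : K)
    (hx : ∀ a ∈ maximalIdeal D, ∃ (n : ℕ) (d : D), algebraMap D K a ^ n * x = algebraMap D K d) :
    IsIntegral D x := by
  by_contra hni
  have hx0 : x ≠ 0 := by rintro rfl; exact hni isIntegral_zero
  let S := Algebra.adjoin D {x⁻¹}
  let y : S := ⟨x⁻¹, Algebra.self_mem_adjoin_singleton D _⟩
  have hyu : ¬ IsUnit y := by
    rintro ⟨u, hu⟩
    apply hni
    apply isIntegral_of_mem_adjoin_inv
    have h1 : ((↑u⁻¹ : S) : K) = x := by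
      have h2 : (u : S) * (↑u⁻¹ : S) = 1 := u.mul_inv
      rw [hu] at h2
      have h3 : x⁻¹ * ((↑u⁻¹ : S) : K) = 1 := congrArg Subtype.val h2
      field_simp at h3
      exact h3
    have h4 := (↑u⁻¹ : S).2
    rw [h1] at h4
    exact h4
  have hft : Algebra.FiniteType D S :=
    Algebra.FiniteType.adjoin_of_finite (Set.finite_singleton _)
  have hN : IsNoetherianRing S := Algebra.FiniteType.isNoetherianRing D S
  have hDS : Function.Injective (algebraMap D S) := by
    intro a b hab
    apply hinj
    exact congrArg Subtype.val hab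
  have hspan : Ideal.span {y} ≠ ⊤ := by rwa [Ne, Ideal.span_singleton_eq_top]
  obtain ⟨M, hM, hyM⟩ := Ideal.exists_le_maximal _ hspan
  obtain ⟨n, hn, hnM⟩ := Ideal.exists_minimalPrimes_le hyM
  have hnp : n.IsPrime := hn.1.1
  have hyn : y ∈ n := hn.1.2 (Ideal.mem_span_singleton_self y)
  have hht : n.height ≤ 1 := Ideal.height_le_one_of_isPrincipal_of_mem_minimalPrimes _ _ hn
  have hm : n.comap (algebraMap D S) = maximalIdeal D := by
    refine (IsLocalRing.eq_maximalIdeal ?_)
    have h1 : maximalIdeal D ≤ n.comap (algebraMap D S) := by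
      intro a ha
      obtain ⟨k, d, hkd⟩ := hx a ha
      have h2 : algebraMap D S a ^ k = y * algebraMap D S d := by
        apply Subtype.ext
        change algebraMap D K a ^ k = x⁻¹ * algebraMap D K d
        rw [← hkd]
        field_simp
      exact hnp.mem_of_pow_mem k (h2 ▸ n.mul_mem_right _ hyn)
    rw [← (IsLocalRing.maximalIdeal.isMaximal D).eq_of_le (hnp.comap _).ne_top h1]
    infer_instance
  have hS : Function.Surjective (aeval y : D[X] →ₐ[D] S) := by
    rintro ⟨z, hz⟩
    have hz' : z ∈ Algebra.adjoin D {x⁻¹} := hz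
    rw [Algebra.adjoin_singleton_eq_range_aeval] at hz'
    obtain ⟨p, hp⟩ := hz'
    refine ⟨p, Subtype.ext ?_⟩
    have := (Polynomial.aeval_algHom_apply S.val y p)
    exact this.symm.trans hp
  -- the contraction
  have hmap : ((maximalIdeal D).map (C : D →+* D[X])).map (aeval y : D[X] →ₐ[D] S) =
      (maximalIdeal D).map (algebraMap D S) := by
    change ((maximalIdeal D).map (C : D →+* D[X])).map ((aeval y : D[X] →ₐ[D] S) : D[X] →+* S) = _
    rw [Ideal.map_map]
    congr 1
    ext a
    simp
  obtain ⟨p, hp0, hpm⟩ : ∃ p : D[X], aeval y p = 0 ∧ p ∉ (maximalIdeal D).map (C : D →+* D[X]) := by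
    by_contra! hcon
    have hker : RingHom.ker ((aeval y : D[X] →ₐ[D] S) : D[X] →+* S) ≤
        (maximalIdeal D).map (C : D →+* D[X]) := fun p hp => hcon p hp
    have hpr : ((maximalIdeal D).map (C : D →+* D[X])).IsPrime :=
      Ideal.isPrime_map_C_of_isPrime
    have hmS : ((maximalIdeal D).map (algebraMap D S)).IsPrime := by
      rw [← hmap]
      exact Ideal.map_isPrime_of_surjective hS hker
    have hle : (maximalIdeal D).map (algebraMap D S) ≤ n := by
      rw [Ideal.map_le_iff_le_comap, hm]
    have hne : (maximalIdeal D).map (algebraMap D S) ≠ n := by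
      intro heq
      have h1 : y ∈ (maximalIdeal D).map (algebraMap D S) := heq ▸ hyn
      rw [← hmap] at h1
      have h2 : (X : D[X]) ∈ (((maximalIdeal D).map (C : D →+* D[X])).map
          (aeval y : D[X] →ₐ[D] S)).comap (aeval y : D[X] →ₐ[D] S) := by
        rw [Ideal.mem_comap, aeval_X]
        exact h1
      have hker' : (⊥ : Ideal S).comap (aeval y : D[X] →ₐ[D] S) ≤ (maximalIdeal D).map (C : D →+* D[X]) :=
        fun p hp => hcon p hp
      rw [Ideal.comap_map_of_surjective _ hS, sup_eq_left.mpr hker', Ideal.mem_map_C_iff] at h2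
      have h3 := h2 1
      rw [coeff_X_one] at h3
      exact (Ideal.ne_top_iff_one _).mp (IsLocalRing.maximalIdeal.isMaximal D).ne_top h3
    have hbot : (⊥ : Ideal S) < (maximalIdeal D).map (algebraMap D S) := by
      rw [bot_lt_iff_ne_bot]
      intro h
      have h1 : maximalIdeal D = ⊥ := by
        rw [eq_bot_iff]
        intro a ha
        have h2 : algebraMap D S a ∈ (maximalIdeal D).map (algebraMap D S) :=
          Ideal.mem_map_of_mem _ ha
        rw [h, Ideal.mem_bot] at h2
        rw [Ideal.mem_bot]
        exact hDS (by rw [h2, map_zero])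
      have h2 : ringKrullDim D = 0 := by
        have := (IsLocalRing.isField_iff_maximalIdeal_eq).mpr h1
        exact ringKrullDim_eq_zero_of_isField this
      rw [h2] at hdim
      exact absurd hdim (by decide)
    have h1 := Ideal.height_strict_mono_of_isPrime_of_isPrime hbot
    have h2 := Ideal.height_strict_mono_of_isPrime_of_isPrime (lt_of_le_of_ne hle hne)
    have h3 : (1 : ℕ∞) ≤ ((maximalIdeal D).map (algebraMap D S)).height :=
      Order.one_le_iff_pos.mpr (lt_of_le_of_lt bot_le h1)
    exact absurd (lt_of_le_of_lt h3 (lt_of_lt_of_le h2 hht)) (lt_irrefl _)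
  obtain ⟨g, k, hg0, hg⟩ := exists_coeff_notMem y p hpm 0 (by
    rw [hp0, mul_zero]; exact Ideal.zero_mem _)
  have hqf : Algebra.QuasiFiniteAt D n := by
    refine Algebra.QuasiFiniteAt.of_isOpen_singleton_fiber (R := D) (S := S) ⟨n, hnp⟩ ?_
    refine ⟨PrimeSpectrum.basicOpen (aeval y g), (PrimeSpectrum.basicOpen _).isOpen, ?_⟩
    ext ⟨q, hq⟩
    have hq' : q.asIdeal.comap (algebraMap D S) = maximalIdeal D := by
      have := congrArg PrimeSpectrum.asIdeal hq
      exact this.trans hm
    simp only [Set.mem_preimage, SetLike.mem_coe, Set.mem_singleton_iff, Subtype.mk.injEq]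
    rw [PrimeSpectrum.mem_basicOpen]
    constructor
    · intro h
      have h1 : y ^ k * aeval y g ∈ q.asIdeal := by
        have : (maximalIdeal D).map (algebraMap D S) ≤ q.asIdeal := by
          rw [Ideal.map_le_iff_le_comap, hq']
        exact this hg
      have h2 : y ∈ q.asIdeal :=
        q.isPrime.mem_of_pow_mem k ((q.isPrime.mem_or_mem h1).resolve_right h)
      apply PrimeSpectrum.ext
      ext s
      obtain ⟨r, rfl⟩ := hS s
      have := q.isPrime
      rw [mem_iff y hS q.asIdeal hq' h2, mem_iff y hS n hm hyn]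
    · rintro rfl h
      exact hg0 ((mem_iff y hS n hm hyn g).mp h)
  have hlo : n.LiesOver (maximalIdeal D) := ⟨hm.symm⟩
  have hint := Groth.Agent.Etrest.IntHens.isIntegral_of_zariskisMainProperty D S n
    (Algebra.ZariskisMainProperty.of_finiteType n) (Localization.AtPrime n)
  have hinj' : Function.Injective (algebraMap D (Localization.AtPrime n)) := by
    rw [IsScalarTower.algebraMap_eq D S (Localization.AtPrime n)]
    rw [RingHom.coe_comp]
    exact (IsLocalization.injective _ n.primeCompl_le_nonZeroDivisors).comp hDS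
  have h1 := Groth.Agent.FlatA.DimFin.ringKrullDim_eq_of_isIntegral_of_injective D
    (Localization.AtPrime n) hinj'
  rw [IsLocalization.AtPrime.ringKrullDim_eq_height n] at h1
  rw [← h1] at hdim
  have h2 : (2 : ℕ∞) ≤ n.height := WithBot.coe_le_coe.mp hdim
  exact absurd (h2.trans hht) (by decide)

end Groth.Agent.Sga2lef.H75.PunctInt
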