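import Groth.Agent.Sga2lef.H75.PunctInt
import Groth.Agent.Sga2lef.H75.PConn
import Mathlib.RingTheory.Ideal.MinimalPrime.Localization
import Mathlib.RingTheory.Localization.Away.Basic

/-!
# Sections over the punctured spectrum of a reduced henselian local ring
-/

set_option autoImplicit false
universe u v

open IsLocalRing Polynomial

namespace Groth.Agent.Sga2lef.H75.PunctRed

variable {A : Type u} [CommRing A]

theorem henselianLocalRing_quotient [HenselianLocalRing A] (p : Ideal A) [p.IsPrime] :
    HenselianLocalRing (A ⧸ p) := by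
  have : IsLocalRing (A ⧸ p) := IsLocalRing.of_surjective' _ Ideal.Quotient.mk_surjective
  have : Algebra.IsIntegral A (A ⧸ p) := Algebra.IsIntegral.of_finite A _
  exact Etrest.IntHens.henselianLocalRing_of_isIntegral A (A ⧸ p)

/-- An element of `A_x` multiplied into `A` by a power of the maximal ideal is integral. -/
theorem isIntegral_of_reduced [IsNoetherianRing A] [HenselianLocalRing A] [IsReduced A]
    (hdim : ∀ p ∈ minimalPrimes A, (2 : WithBot ℕ∞) ≤ ringKrullDim (A ⧸ p)) (x : A)
    (hx : x ∈ nonZeroDivisors A) (s : Localization.Away x)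
    (hs : ∀ a ∈ maximalIdeal A, ∃ (n : ℕ) (b : A), algebraMap A (Localization.Away x) a ^ n * s =
      algebraMap A (Localization.Away x) b) : IsIntegral A s := by
  classical
  -- the map to the residue field at a minimal prime
  have hφ : ∀ p : minimalPrimes A, ∃ φ : Localization.Away x →+* FractionRing (A ⧸ p.1),
      ∀ a, φ (algebraMap A _ a) = algebraMap (A ⧸ p.1) _ (Ideal.Quotient.mk p.1 a) := by
    rintro ⟨p, hp⟩
    have hpp : p.IsPrime := hp.1.1
    have hxp : x ∉ p := fun h => Set.disjoint_left.mp
      (Ideal.disjoint_nonZeroDivisors_of_mem_minimalPrimes hp) h hx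
    have hu : IsUnit (((algebraMap (A ⧸ p) (FractionRing (A ⧸ p))).comp (Ideal.Quotient.mk p)) x) := by
      rw [isUnit_iff_ne_zero, RingHom.comp_apply, Ne,
        FaithfulSMul.algebraMap_eq_zero_iff, Ideal.Quotient.eq_zero_iff_mem]
      exact hxp
    exact ⟨IsLocalization.Away.lift x hu, fun a => IsLocalization.Away.lift_eq x hu a⟩
  choose φ hφ using hφ
  have hpoly : ∀ p : minimalPrimes A, ∃ f : A[X], f.Monic ∧ φ p (aeval s f) = 0 := by
    intro p
    have hpp : p.1.IsPrime := p.2.1.1
    have hH : HenselianLocalRing (A ⧸ p.1) := henselianLocalRing_quotient p.1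
    have hinj : Function.Injective (algebraMap (A ⧸ p.1) (FractionRing (A ⧸ p.1))) :=
      IsFractionRing.injective _ _
    have h1 : IsIntegral (A ⧸ p.1) (φ p s) := by
      refine PunctInt.isIntegral_of_domain hinj (hdim p.1 p.2) _ fun a ha => ?_
      obtain ⟨a, rfl⟩ := Ideal.Quotient.mk_surjective a
      have ha' : a ∈ maximalIdeal A := by
        rw [mem_maximalIdeal, mem_nonunits_iff] at ha ⊢
        exact fun h => ha (h.map _)
      obtain ⟨n, b, hb⟩ := hs a ha'
      refine ⟨n, Ideal.Quotient.mk _ b, ?_⟩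
      rw [← hφ, ← hφ, ← map_pow, ← map_mul, hb]
    obtain ⟨g, hg, hg0⟩ := h1
    have hl : g ∈ lifts (Ideal.Quotient.mk p.1) := by
      rw [lifts_iff_coeffs_subset_range]
      intro c _
      exact Ideal.Quotient.mk_surjective c
    obtain ⟨f, hfg, -, hf⟩ := lifts_and_natDegree_eq_and_monic hl hg
    refine ⟨f, hf, ?_⟩
    rw [← hg0, ← hfg, eval₂_map, aeval_def, hom_eval₂]
    congr 1
    ext a
    exact hφ p a
  choose f hf hf0 using hpoly
  have hfin : Finite (minimalPrimes A) := (minimalPrimes.finite_of_isNoetherianRing A).to_subtype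
  have : Fintype (minimalPrimes A) := Fintype.ofFinite _
  refine ⟨∏ p, f p, monic_prod_of_monic _ _ fun p _ => hf p, ?_⟩
  have hz : ∀ p, φ p (aeval s (∏ p, f p)) = 0 := by
    intro p
    rw [map_prod, map_prod]
    exact Finset.prod_eq_zero (Finset.mem_univ p) (hf0 p)
  change aeval s (∏ p, f p) = 0
  generalize aeval s (∏ p, f p) = y at hz
  obtain ⟨n, a, hy⟩ := IsLocalization.Away.surj x y
  have ha : a = 0 := by
    have h1 : a ∈ nilradical A := by
      rw [nilradical, ← Ideal.sInf_minimalPrimes, Ideal.mem_sInf]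
      intro p hp
      have hpp : p.IsPrime := hp.1.1
      have h2 := congrArg (φ ⟨p, hp⟩) hy
      rw [map_mul, hz, zero_mul, hφ, eq_comm, FaithfulSMul.algebraMap_eq_zero_iff,
        Ideal.Quotient.eq_zero_iff_mem] at h2
      exact h2
    rw [nilradical_eq_zero] at h1
    exact h1
  rw [ha, map_zero] at hy
  have hu : IsUnit (algebraMap A (Localization.Away x) x ^ n) :=
    (IsLocalization.Away.algebraMap_isUnit x).pow n
  exact hu.mul_left_eq_zero.mp hy

end Groth.Agent.Sga2lef.H75.PunctRed
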