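import Groth.Agent.Sga2lef.H75.PunctRed
import Groth.Agent.CalgA.DepthSmall

/-!
# The ideal transform of a reduced local ring
-/

set_option autoImplicit false
universe u v

open IsLocalRing Polynomial

namespace Groth.Agent.Sga2lef.H75.Transform

variable {B : Type u} [CommRing B] [IsLocalRing B] (x : B)

/-- The elements of `B_x` multiplied into `B` by a power of the maximal ideal. -/
def transform : Subalgebra B (Localization.Away x) where
  carrier := {s | ∃ n : ℕ, ∀ a ∈ maximalIdeal B ^ n, ∃ b : B,
    algebraMap B (Localization.Away x) a * s = algebraMap B (Localization.Away x) b}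
  mul_mem' := by
    rintro s t ⟨n, hn⟩ ⟨m, hm⟩
    refine ⟨n + m, fun a ha => ?_⟩
    rw [pow_add] at ha
    refine Submodule.mul_induction_on ha (fun c hc d hd => ?_) ?_
    · obtain ⟨c', hc'⟩ := hn c hc
      obtain ⟨d', hd'⟩ := hm d hd
      exact ⟨c' * d', by rw [map_mul, map_mul, ← hc', ← hd']; ring⟩
    · rintro c d ⟨c', hc'⟩ ⟨d', hd'⟩
      exact ⟨c' + d', by rw [map_add, map_add, add_mul, hc', hd']⟩
  add_mem' := by
    rintro s t ⟨n, hn⟩ ⟨m, hm⟩
    refine ⟨n + m, fun a ha => ?_⟩
    obtain ⟨c, hc⟩ := hn a (Ideal.pow_le_pow_right (Nat.le_add_right _ _) ha)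
    obtain ⟨d, hd⟩ := hm a (Ideal.pow_le_pow_right (Nat.le_add_left _ _) ha)
    exact ⟨c + d, by rw [mul_add, hc, hd, map_add]⟩
  algebraMap_mem' := fun b => ⟨0, fun a _ => ⟨a * b, by rw [map_mul]⟩⟩

variable {x}

theorem mem_transform_iff (s : Localization.Away x) : s ∈ transform x ↔
    ∃ n : ℕ, ∀ a ∈ maximalIdeal B ^ n, ∃ b : B,
      algebraMap B (Localization.Away x) a * s = algebraMap B (Localization.Away x) b := Iff.rfl

/-- A finite subalgebra of the transform is multiplied into `B` by a power of the maximal ideal. -/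
theorem exists_pow_of_finite (E : Subalgebra B (Localization.Away x)) (hE : E ≤ transform x)
    [Module.Finite B E] : ∃ N : ℕ, ∀ a ∈ maximalIdeal B ^ N, ∀ e ∈ E, ∃ b : B,
      algebraMap B (Localization.Away x) a * e = algebraMap B (Localization.Away x) b := by
  classical
  obtain ⟨S, hS⟩ := (inferInstance : Module.Finite B E).fg_top
  choose n hn using fun e : E => hE e.2
  refine ⟨S.sup n, fun a ha e he => ?_⟩
  have h1 : (⟨e, he⟩ : E) ∈ Submodule.span B (S : Set E) := hS ▸ Submodule.mem_top
  suffices h : ∀ t : E, t ∈ Submodule.span B (S : Set E) → ∃ b : B,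
      algebraMap B (Localization.Away x) a * (t : Localization.Away x) =
        algebraMap B (Localization.Away x) b from h _ h1
  intro t ht
  induction ht using Submodule.span_induction with
  | mem t ht => exact hn t a (Ideal.pow_le_pow_right (Finset.le_sup ht) ha)
  | zero => exact ⟨0, by simp⟩
  | add t t' _ _ h1 h2 =>
    obtain ⟨b, hb⟩ := h1
    obtain ⟨b', hb'⟩ := h2
    exact ⟨b + b', by rw [Subalgebra.coe_add, mul_add, hb, hb', map_add]⟩
  | smul c t _ h1 =>
    obtain ⟨b, hb⟩ := h1
    refine ⟨c * b, ?_⟩
    rw [Subalgebra.coe_smul, Algebra.smul_def, map_mul, ← hb]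
    ring

/-- The ideal of the elements `a e` lying in `B`, `a` in the `N`-th power of the maximal ideal. -/
def partIdeal (e : Localization.Away x) (N : ℕ) : Ideal B :=
  Submodule.comap (Algebra.linearMap B (Localization.Away x))
    (Submodule.map (LinearMap.toSpanSingleton B (Localization.Away x) e) (maximalIdeal B ^ N))

theorem mem_partIdeal (e : Localization.Away x) (N : ℕ) (b : B) : b ∈ partIdeal e N ↔
    ∃ a ∈ maximalIdeal B ^ N, algebraMap B (Localization.Away x) a * e =
      algebraMap B (Localization.Away x) b := by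
  simp only [partIdeal, Submodule.mem_comap, Submodule.mem_map, LinearMap.toSpanSingleton_apply,
    Algebra.linearMap_apply, Algebra.smul_def]

theorem isUnit_x : IsUnit (algebraMap B (Localization.Away x) x) :=
  IsLocalization.Away.algebraMap_isUnit x

theorem injective_algebraMap (hx : x ∈ nonZeroDivisors B) :
    Function.Injective (algebraMap B (Localization.Away x)) :=
  IsLocalization.injective _ (Submonoid.powers_le.mpr hx)

/-- Idempotents of the transform are trivial when the punctured spectrum is connected. -/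
theorem eq_zero_or_one (hB : PConn.IsPConn B) (hx : x ∈ nonZeroDivisors B)
    (hxm : x ∈ maximalIdeal B) (e : Localization.Away x) (he : e ∈ transform x) (hee : e * e = e) :
    e = 0 ∨ e = 1 := by
  obtain ⟨N, hN⟩ := he
  have hmul : partIdeal e N * partIdeal (1 - e) N ≤ nilradical B := by
    rw [Ideal.mul_le]
    intro b hb b' hb'
    obtain ⟨a, ha, hab⟩ := (mem_partIdeal _ _ _).mp hb
    obtain ⟨a', ha', hab'⟩ := (mem_partIdeal _ _ _).mp hb'
    have h1 : b * b' = 0 := by
      apply injective_algebraMap hx
      rw [map_mul, ← hab, ← hab', map_zero]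
      have h2 : e * (1 - e) = 0 := by rw [mul_sub, mul_one, hee, sub_self]
      calc algebraMap B (Localization.Away x) a * e * (algebraMap B (Localization.Away x) a' * (1 - e))
          = algebraMap B (Localization.Away x) a * algebraMap B (Localization.Away x) a' *
            (e * (1 - e)) := by ring
        _ = 0 := by rw [h2, mul_zero]
    rw [h1]
    exact Ideal.zero_mem _
  have hsup : ∃ n, maximalIdeal B ^ n ≤ partIdeal e N ⊔ partIdeal (1 - e) N := by
    refine ⟨N, fun a ha => ?_⟩
    obtain ⟨b, hb⟩ := hN a ha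
    have h1 : a = b + (a - b) := by ring
    rw [h1]
    refine Submodule.add_mem_sup ((mem_partIdeal _ _ _).mpr ⟨a, ha, hb⟩)
      ((mem_partIdeal _ _ _).mpr ⟨a, ha, ?_⟩)
    rw [mul_sub, mul_one, hb, map_sub]
  have hux : ∀ n, IsUnit (algebraMap B (Localization.Away x) (x ^ n)) := fun n => by
    rw [map_pow]; exact isUnit_x.pow n
  rcases hB _ _ hmul hsup with ⟨n, hn⟩ | ⟨n, hn⟩
  · right
    obtain ⟨a, ha, hab⟩ := (mem_partIdeal _ _ _).mp (hn (Ideal.pow_mem_pow hxm n))
    have h1 : algebraMap B (Localization.Away x) (x ^ n) * (1 - e) = 0 := by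
      rw [← hab, mul_assoc, mul_sub, mul_one, hee, sub_self, mul_zero]
    exact (sub_eq_zero.mp ((hux n).mul_right_eq_zero.mp h1)).symm
  · left
    obtain ⟨a, ha, hab⟩ := (mem_partIdeal _ _ _).mp (hn (Ideal.pow_mem_pow hxm n))
    have h1 : algebraMap B (Localization.Away x) (x ^ n) * e = 0 := by
      rw [← hab, mul_assoc, sub_mul, one_mul, hee, sub_self, mul_zero]
    exact (hux n).mul_right_eq_zero.mp h1

/-- A finite subalgebra of the transform of a henselian local ring with connected punctured spectrum
is local. -/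
theorem isLocalRing_of_finite {B : Type u} [CommRing B] [HenselianLocalRing B] {x : B}
    (hB : PConn.IsPConn B) (hx : x ∈ nonZeroDivisors B)
    (hxm : x ∈ maximalIdeal B) (E : Subalgebra B (Localization.Away x)) (hE : E ≤ transform x)
    [Module.Finite B E] : IsLocalRing E := by
  have hinj := injective_algebraMap hx
  have : Nontrivial (Localization.Away x) := hinj.nontrivial
  have hnt : Nontrivial E := inferInstance
  refine IsLocalRing.of_unique_max_ideal ?_
  obtain ⟨m, hm⟩ := Ideal.exists_maximal E
  refine ⟨m, hm, fun m' hm' => ?_⟩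
  have h1 : m'.IsMaximal := hm'
  obtain ⟨e, hee, hem, heu⟩ := Etrest.IntHens.exists_idempotent B E m'
  by_contra hne
  have hem' : e ∈ m := by
    by_contra h
    exact hne (heu m hm h).symm
  rcases eq_zero_or_one hB hx hxm (e : Localization.Away x) (hE e.2)
    (by exact congrArg Subtype.val hee) with h | h
  · apply hem
    have : e = 0 := Subtype.ext h
    rw [this]
    exact Ideal.zero_mem _
  · apply hm.ne_top
    rw [Ideal.eq_top_iff_one]
    have : e = 1 := Subtype.ext h
    rwa [← this]

end Groth.Agent.Sga2lef.H75.Transform
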